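import Mathlib
import Cfsg.Agent.Lib.Helper54.Dihedral

/-!
Package PK-D12 of the S3685 project: a group of order 12 with a non-normal subgroup `T` of
order 4 containing a central involution `z` and a second involution `σ` is dihedral of order 12.
-/

set_option autoImplicit false

namespace Cfsg.Agent.Lib.Helper38.Sub3

theorem iso_D12 {H : Type*} [Group H] [Finite H] (hcard : Nat.card H = 12) (T : Subgroup H)
    (hT : Nat.card T = 4) (hTn : ¬ T.Normal) (z σ : H) (hzT : z ∈ T) (hσT : σ ∈ T) (hz1 : z ≠ 1)
    (hz2 : z * z = 1) (hzc : ∀ g : H, g * z = z * g) (hσ1 : σ ≠ 1) (hσz : σ ≠ z)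
    (hσ2 : σ * σ = 1) : Nonempty (H ≃* DihedralGroup 6) := by
  haveI : Fact (Nat.Prime 3) := ⟨by norm_num⟩
  obtain ⟨ρ, hρ⟩ := exists_prime_orderOf_dvd_card' (G := H) 3 (by rw [hcard]; norm_num)
  have hzo : orderOf z = 2 := orderOf_eq_prime (by rw [pow_two]; exact hz2) hz1
  have hcomm : Commute ρ z := hzc ρ
  obtain ⟨a, ha⟩ : ∃ a : H, a = ρ * z := ⟨_, rfl⟩
  have hao : orderOf a = 6 := by
    rw [ha, hcomm.orderOf_mul_eq_mul_orderOf_of_coprime (by rw [hρ, hzo]; norm_num), hρ, hzo]
  have ha6 : a ^ 6 = 1 := by rw [← hao]; exact pow_orderOf_eq_one a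
  have ha3 : a ^ 3 = z := by
    rw [ha, hcomm.mul_pow]
    have h1 : ρ ^ 3 = 1 := by rw [← hρ]; exact pow_orderOf_eq_one ρ
    have h2 : z ^ 3 = z := by rw [pow_succ, pow_two, hz2, one_mul]
    rw [h1, h2, one_mul]
  have hσsq : σ ^ 2 = 1 := by rw [pow_two]; exact hσ2
  -- σ is not a power of a
  have hxa : σ ∉ Subgroup.zpowers a := by
    intro h
    obtain ⟨k, hk⟩ := Subgroup.mem_zpowers_iff.mp h
    have h1 : a ^ (k * 2) = 1 := by
      rw [zpow_mul, hk, zpow_ofNat, hσsq]
    have h2 : ((orderOf a : ℕ) : ℤ) ∣ k * 2 := orderOf_dvd_iff_zpow_eq_one.mpr h1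
    rw [hao] at h2
    obtain ⟨m, hm⟩ : ∃ m : ℤ, k = 3 * m := by
      obtain ⟨c, hc⟩ := h2
      exact ⟨c, by push_cast at hc; omega⟩
    have h3 : σ = z ^ m := by
      rw [← hk, hm, zpow_mul, zpow_ofNat, ha3]
    obtain ⟨n, rfl | rfl⟩ := Int.even_or_odd' m
    · apply hσ1
      rw [h3, zpow_mul, zpow_ofNat, pow_two, hz2, one_zpow]
    · apply hσz
      rw [h3, zpow_add, zpow_mul, zpow_ofNat, pow_two, hz2, one_zpow, one_mul, zpow_one]
  -- ⟨a⟩ has index 2
  have hidx : (Subgroup.zpowers a).index = 2 := by
    have h1 := (Subgroup.zpowers a).card_mul_index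
    rw [Nat.card_zpowers, hao, hcard] at h1
    omega
  haveI hN : (Subgroup.zpowers a).Normal := Subgroup.normal_of_index_eq_two hidx
  have hmem : σ * a * σ⁻¹ ∈ Subgroup.zpowers a := hN.conj_mem a (Subgroup.mem_zpowers a) σ
  obtain ⟨j, hj⟩ := Subgroup.mem_zpowers_iff.mp hmem
  have hj' : a ^ (j % 6) = σ * a * σ⁻¹ := by
    rw [← hj]
    have h1 := zpow_mod_orderOf a j
    rw [hao] at h1
    exact_mod_cast h1
  have key : ∀ n : ℕ, 0 < n → n < 6 → (σ * a * σ⁻¹) ^ n ≠ 1 := by
    intro n hn0 hn6 h
    rw [conj_pow] at h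
    have h1 : a ^ n = 1 := by
      have h2 : a ^ n = σ⁻¹ * (σ * a ^ n * σ⁻¹) * σ := by group
      rw [h2, h, mul_one, inv_mul_cancel]
    have h3 := orderOf_dvd_of_pow_eq_one h1
    rw [hao] at h3
    have := Nat.le_of_dvd hn0 h3
    omega
  have hr0 : 0 ≤ j % 6 := Int.emod_nonneg _ (by norm_num)
  have hr6 : j % 6 < 6 := Int.emod_lt_of_pos _ (by norm_num)
  -- the subgroup lemma: anything containing ⟨a⟩ and σ is everything
  have hL : ∀ C : Subgroup H, Subgroup.zpowers a ≤ C → σ ∈ C → C = ⊤ := by
    intro C hC hσC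
    have h1 : Nat.card (Subgroup.zpowers a) ∣ Nat.card C := Subgroup.card_dvd_of_le hC
    have h2 : Nat.card C ∣ Nat.card H := Subgroup.card_subgroup_dvd_card C
    rw [Nat.card_zpowers, hao] at h1
    rw [hcard] at h2
    have h3 : Nat.card C = 6 ∨ Nat.card C = 12 := by
      obtain ⟨c, hc⟩ := h1
      obtain ⟨d, hd⟩ := h2
      have hc0 : 0 < c := by
        rcases Nat.eq_zero_or_pos c with h | h
        · rw [h] at hc; rw [hc] at hd; omega
        · exact h
      have : c * d = 2 := by rw [hc] at hd; nlinarith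
      have hc2 : c ≤ 2 := Nat.le_of_dvd (by norm_num) ⟨d, this.symm⟩
      interval_cases c
      · left; omega
      · right; omega
    rcases h3 with h3 | h3
    · exfalso
      have h4 : Subgroup.zpowers a = C :=
        Subgroup.eq_of_le_of_card_ge hC (by rw [Nat.card_zpowers, hao, h3])
      exact hxa (h4 ▸ hσC)
    · exact (Subgroup.card_eq_iff_eq_top C).mp (by rw [h3, hcard])
  have hconj : σ * a * σ⁻¹ = a⁻¹ := by
    generalize j % 6 = r at hj' hr0 hr6
    interval_cases r
    · exfalso
      rw [zpow_zero] at hj'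
      exact key 1 (by norm_num) (by norm_num) (by rw [pow_one, ← hj'])
    · exfalso
      rw [zpow_one] at hj'
      have hσa : σ * a = a * σ := by
        have h1 : σ * a = σ * a * σ⁻¹ * σ := by group
        rw [h1, ← hj']
      -- a is central
      have hacen : a ∈ Subgroup.center H := by
        have h1 : Subgroup.centralizer {a} = ⊤ := by
          apply hL
          · rw [Subgroup.zpowers_le]
            rw [Subgroup.mem_centralizer_iff]
            intro h hh
            rw [Set.mem_singleton_iff] at hh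
            rw [hh]
          · rw [Subgroup.mem_centralizer_iff]
            intro h hh
            rw [Set.mem_singleton_iff] at hh
            rw [hh]
            exact hσa.symm
        rw [Subgroup.mem_center_iff]
        intro g
        have h2 : g ∈ Subgroup.centralizer {a} := by rw [h1]; trivial
        rw [Subgroup.mem_centralizer_iff] at h2
        exact (h2 a rfl).symm
      have hσcen : σ ∈ Subgroup.center H := by
        have h1 : Subgroup.centralizer {σ} = ⊤ := by
          apply hL
          · rw [Subgroup.zpowers_le]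
            rw [Subgroup.mem_centralizer_iff]
            intro h hh
            rw [Set.mem_singleton_iff] at hh
            rw [hh]
            exact hσa
          · rw [Subgroup.mem_centralizer_iff]
            intro h hh
            rw [Set.mem_singleton_iff] at hh
            rw [hh]
        rw [Subgroup.mem_center_iff]
        intro g
        have h2 : g ∈ Subgroup.centralizer {σ} := by rw [h1]; trivial
        rw [Subgroup.mem_centralizer_iff] at h2
        exact (h2 σ rfl).symm
      have hcen : Subgroup.center H = ⊤ :=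
        hL _ ((Subgroup.zpowers_le).mpr hacen) hσcen
      apply hTn
      refine ⟨fun n hn g => ?_⟩
      have h1 : n ∈ Subgroup.center H := by rw [hcen]; trivial
      rw [Subgroup.mem_center_iff] at h1
      rw [h1 g, mul_inv_cancel_right]
      exact hn
    · exfalso
      rw [zpow_ofNat] at hj'
      apply key 3 (by norm_num) (by norm_num)
      rw [← hj', ← pow_mul]
      exact ha6
    · exfalso
      rw [zpow_ofNat] at hj'
      apply key 2 (by norm_num) (by norm_num)
      rw [← hj', ← pow_mul]
      exact ha6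
    · exfalso
      rw [zpow_ofNat] at hj'
      apply key 3 (by norm_num) (by norm_num)
      rw [← hj', ← pow_mul]
      have : a ^ (4 * 3) = (a ^ 6) ^ 2 := by rw [← pow_mul]
      rw [this, ha6, one_pow]
    · rw [zpow_ofNat] at hj'
      rw [← hj']
      apply eq_inv_of_mul_eq_one_left
      rw [← pow_succ]
      exact ha6
  exact Cfsg.Agent.Lib.Helper54.nonempty_mulEquiv_dihedralGroup hσsq hao (by rw [hcard]) hxa hconj

end Cfsg.Agent.Lib.Helper38.Sub3
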